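import Mathlib
import Cfsg.Agent.H668.Five.Rows
import Cfsg.Agent.H714.JRows

/-!
# `k(B₀) = 5`, `p = 2`: the rows of `J₂` and `J₃` (helper70)

The centralizer `2^{1+4}.A5` of an involution has no normal `2`-complement and contains an element
of order `8`.
-/

set_option autoImplicit false

namespace Cfsg.Agent.H70.Five.Janko

open Cfsg Cfsg.Agent.H668.Five Subgroup
open Cfsg.Agent.J2Type.Model Cfsg.Agent.H419.Spor.JModel Cfsg.Agent.H714.JRows

section model

variable {C : Type*} [Group C] {Q : Subgroup C} {z : C} {v : Fin 5 → C} {ρ : C →* SP}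

theorem sigma_g12 : (g12 ^ 4).σ 0 ≠ 0 := by decide +kernel

theorem isPGroup_Q (M : IsModel Q z v ρ) : IsPGroup 2 ↥Q := by
  rintro ⟨x, hx⟩
  refine ⟨2, Subtype.ext ?_⟩
  show x ^ 4 = 1
  have h4 : x ^ 4 = (x * x) * (x * x) := by
    rw [show (4 : ℕ) = 2 * 2 from rfl, pow_mul, pow_two, pow_two]
  rw [h4]
  rcases KFacts.QMinus.sq_mem M hx with h | h
  · rw [h, one_mul]
  · rw [h, M.z_sq]

theorem not_compl [Finite C] (M : IsModel Q z v ρ) : ¬ HasNormalPComplement 2 C := by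
  obtain ⟨x, hx, hx6, hx4⟩ := exists_twelve' M
  have h12 := orderOf_twelve M hx6 hx4
  refine not_compl_of_act Q (isPGroup_Q M) (x ^ 4) ?_ ?_ (M.v_mem 0) ?_
  · rw [orderOf_pow, h12]
    decide
  · intro a ha
    have h1 := (M.mem_Q a).1 ha
    rw [M.mem_Q, map_mul, map_mul, map_inv]
    show (ρ (x ^ 4)).σ * (ρ a).σ * (ρ (x ^ 4)).σ⁻¹ = 1
    rw [h1, mul_one, mul_inv_cancel]
  · intro h
    have h1 := M.conj (x ^ 4) 0
    rw [h, mul_inv_cancel_right, map_pow, hx] at h1
    have h2 : zp z 0 * v 0 = zp z ((g12 ^ 4).s 0) * v ((g12 ^ 4).σ 0) := by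
      rw [zp_zero, one_mul]
      exact h1
    exact sigma_g12 (M.v_inj _ _ _ _ h2).2.symm

end model

theorem good_of_model {G : Type*} [Group G] [Finite G] {t : G}
    {Q : Subgroup (centralizer ({t} : Set G))} {v : Fin 5 → centralizer ({t} : Set G)}
    {ρ : centralizer ({t} : Set G) →* SP} {z : centralizer ({t} : Set G)} (hz : (z : G) = t)
    (M : IsModel Q z v ρ) : Good G := by
  obtain ⟨w, hw, hw4⟩ := exists_eight' M
  refine Or.inr ⟨t, w, ?_, not_compl M, ?_⟩
  · rw [← hz, Subgroup.orderOf_coe]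
    exact orderOf_eq_prime (by rw [pow_two, M.z_sq]) M.z_ne
  · rw [Subgroup.orderOf_coe, orderOf_eight M hw4]

theorem row_j2 {S : Type*} [Group S] [Finite S] (h : Spor.IsoJ2 S) : Row S := by
  obtain ⟨t, u, Q, v, ρ, D⟩ := KFacts.J2.Facts.exists_dat_of h
  exact Or.inl (good_of_model rfl D.M)

theorem row_j3 {S : Type*} [Group S] [Finite S] (h : Spor.IsoJ3 S) : Row S := by
  obtain ⟨-, z, Q, v, ρ, n, u, D⟩ := KFacts.J3.exists_facts h
  exact Or.inl (good_of_model rfl D.model)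

end Cfsg.Agent.H70.Five.Janko
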