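import Mathlib
import Cfsg.Agent.H668.Five.Rows
import Cfsg.Agent.H419.Spor.Mathieu

/-!
# `k(B₀) = 5`, `p = 2`: the rows of `M₂₂`, `M₂₃`, `M₂₄` (helper70)

`M₂₂` contains an element of order `8` and an involution commuting with a subgroup `A₄`.
-/

set_option autoImplicit false

namespace Cfsg.Agent.H70.Five.Mathieu

open Cfsg Cfsg.Agent.H668.Five Subgroup
open Cfsg.Agent.H419.Spor.Mathieu

section A4

variable {X : Type*} [Group X]

/-- the subgroup `{1, a, b, ab}` -/
def four (a b : X) (ha : a * a = 1) (hb : b * b = 1) (hab : a * b = b * a) : Subgroup X where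
  carrier := {x | x = 1 ∨ x = a ∨ x = b ∨ x = a * b}
  one_mem' := Or.inl rfl
  mul_mem' := by
    have e1 : a * (a * b) = b := by rw [← mul_assoc, ha, one_mul]
    have e2 : b * (a * b) = a := by rw [hab, ← mul_assoc, hb, one_mul]
    have e3 : a * b * a = b := by rw [hab, mul_assoc, ha, mul_one]
    have e4 : a * b * b = a := by rw [mul_assoc, hb, mul_one]
    have e5 : a * b * (a * b) = 1 := by rw [mul_assoc, e2, ha]
    rintro x y (rfl | rfl | rfl | rfl) (rfl | rfl | rfl | rfl)
    all_goals simp only [Set.mem_ofPred_eq, one_mul, mul_one, ha, hb, e1, e2, e3, e4, e5, true_or,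
      or_true]
    right; right; right; exact hab.symm
  inv_mem' := by
    rintro x (rfl | rfl | rfl | rfl)
    · left; exact inv_one
    · right; left; exact inv_eq_of_mul_eq_one_right ha
    · right; right; left; exact inv_eq_of_mul_eq_one_right hb
    · right; right; right
      apply inv_eq_of_mul_eq_one_right
      rw [mul_assoc, hab, ← mul_assoc b, hb, one_mul, ha]

/-- A group containing `A₄` has no normal `2`-complement. -/
theorem not_compl_of_A4 [Finite X] {a b h : X} (ha : a * a = 1) (hab : a * b = b * a)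
    (h1 : h * a = b * h) (h2 : h * b = a * b * h) (ho : orderOf h = 3) (hne : h * a ≠ a * h) :
    ¬ HasNormalPComplement 2 X := by
  have h1' : h * a * h⁻¹ = b := mul_inv_eq_iff_eq_mul.2 h1
  have h2' : h * b * h⁻¹ = a * b := mul_inv_eq_iff_eq_mul.2 h2
  have hb : b * b = 1 := by
    calc b * b = (h * a * h⁻¹) * (h * a * h⁻¹) := by rw [h1']
      _ = h * (a * a) * h⁻¹ := by group
      _ = 1 := by rw [ha, mul_one, mul_inv_cancel]
  refine not_compl_of_act (four a b ha hb hab) ?_ h (by rw [ho]; decide) ?_ (a := a)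
    (Or.inr (Or.inl rfl)) hne
  · rintro ⟨x, hx⟩
    refine ⟨1, Subtype.ext ?_⟩
    show x ^ (2 ^ 1) = 1
    rw [pow_one, pow_two]
    rcases hx with rfl | rfl | rfl | rfl
    · exact mul_one 1
    · exact ha
    · exact hb
    · rw [mul_assoc, hab, ← mul_assoc b, hb, one_mul, ha]
  · rintro x (rfl | rfl | rfl | rfl)
    · left
      rw [mul_one, mul_inv_cancel]
    · right; right; left
      exact h1'
    · right; right; right
      exact h2'
    · right; left
      calc h * (a * b) * h⁻¹ = (h * a * h⁻¹) * (h * b * h⁻¹) := by group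
        _ = b * (a * b) := by rw [h1', h2']
        _ = a := by rw [hab, ← mul_assoc, hb, one_mul]

end A4

local notation "C" => cubeTwist

/-- an element of order `8` -/
noncomputable def z8 : Spor.M22 := ⟨T * C * T * C * T * M,
  ⟨mul_mem (mul_mem (mul_mem (mul_mem (mul_mem T_mem C_mem) T_mem) C_mem) T_mem) M_mem, by
      show (T * C * T * C * T * M) none = none
      decide +kernel⟩, by
      show (T * C * T * C * T * M) (some 0) = some 0
      decide +kernel⟩

theorem z8_order : orderOf z8 = 8 := by
  refine orderOf_eq (by norm_num) ?_ ?_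
  · apply Subtype.ext
    show (T * C * T * C * T * M) ^ 8 = 1
    apply Equiv.ext
    decide +kernel
  · intro p hp h
    have h1 : (T * C * T * C * T * M) ^ (8 / p) = 1 := congrArg (fun z => z.1) h
    have h2 := Equiv.ext_iff.1 h1
    have h3 : p = 2 := by
      have : p ∈ ({2} : Finset ℕ) := by
        rw [show ({2} : Finset ℕ) = (8 : ℕ).primeFactors by decide +kernel]
        exact hp
      simpa using this
    subst h3
    revert h2
    decide +kernel

/-- the involution -/
noncomputable def pz : Equiv.Perm GolayPt := C * T * C * T * C * T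
/-- an element of order `3` commuting with `pz` -/
noncomputable def ph : Equiv.Perm GolayPt := M * M * C * T * T * C * T * T * T * T * T * C * C
/-- an involution commuting with `pz` -/
noncomputable def pa : Equiv.Perm GolayPt := T * C * T * C * C * C * C * M * T * C * C * M * T
/-- the conjugate of `pa` under `ph` -/
noncomputable def pb : Equiv.Perm GolayPt := ph * pa * ph * ph

theorem pz_mem : pz ∈ Spor.M22 := by
  refine ⟨⟨?_, ?_⟩, ?_⟩
  · repeat (first | exact C_mem | exact T_mem | exact M_mem | apply mul_mem)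
  · show (C * T * C * T * C * T) none = none
    decide +kernel
  · show (C * T * C * T * C * T) (some 0) = some 0
    decide +kernel

theorem ph_mem : ph ∈ Spor.M22 := by
  refine ⟨⟨?_, ?_⟩, ?_⟩
  · repeat (first | exact C_mem | exact T_mem | exact M_mem | apply mul_mem)
  · show ph none = none
    unfold ph
    decide +kernel
  · show ph (some 0) = some 0
    unfold ph
    decide +kernel

theorem pa_mem : pa ∈ Spor.M22 := by
  refine ⟨⟨?_, ?_⟩, ?_⟩
  · repeat (first | exact C_mem | exact T_mem | exact M_mem | apply mul_mem)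
  · show pa none = none
    unfold pa
    decide +kernel
  · show pa (some 0) = some 0
    unfold pa
    decide +kernel

theorem pb_mem : pb ∈ Spor.M22 :=
  mul_mem (mul_mem (mul_mem ph_mem pa_mem) ph_mem) ph_mem

theorem pz_sq : pz * pz = 1 := by
  apply Equiv.ext
  unfold pz
  decide +kernel

theorem pa_sq : pa * pa = 1 := by
  apply Equiv.ext
  unfold pa
  decide +kernel

theorem ph_cube : ph * ph * ph = 1 := by
  apply Equiv.ext
  unfold ph
  decide +kernel

theorem pz_ph : ph * pz = pz * ph := by
  apply Equiv.ext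
  unfold ph pz
  decide +kernel

theorem pz_pa : pa * pz = pz * pa := by
  apply Equiv.ext
  unfold pa pz
  decide +kernel

theorem pa_pb : pa * pb = pb * pa := by
  apply Equiv.ext
  unfold pb pa ph
  decide +kernel

theorem ph_pb : ph * pb = pa * pb * ph := by
  apply Equiv.ext
  unfold pb pa ph
  decide +kernel

theorem pz_ne : pz ≠ 1 := by
  intro h
  have h2 := Equiv.ext_iff.1 h
  revert h2
  unfold pz
  decide +kernel

theorem ph_pa : ph * pa ≠ pa * ph := by
  intro h
  have h2 := Equiv.ext_iff.1 h
  revert h2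
  unfold pa ph
  decide +kernel

theorem not_compl_pz :
    ¬ HasNormalPComplement 2 ↥(centralizer ({(⟨pz, pz_mem⟩ : Spor.M22)} : Set Spor.M22)) := by
  let a : centralizer ({(⟨pz, pz_mem⟩ : Spor.M22)} : Set Spor.M22) :=
    ⟨⟨pa, pa_mem⟩, mem_centralizer_singleton_iff.2 (Subtype.ext pz_pa)⟩
  let h : centralizer ({(⟨pz, pz_mem⟩ : Spor.M22)} : Set Spor.M22) :=
    ⟨⟨ph, ph_mem⟩, mem_centralizer_singleton_iff.2 (Subtype.ext pz_ph)⟩
  have hh : h * h * h = 1 := Subtype.ext (Subtype.ext ph_cube)
  have hne : h * a ≠ a * h := fun e => ph_pa (congrArg (fun x => x.1.1) e)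
  refine not_compl_of_A4 (a := a) (b := h * a * h * h) (h := h) (Subtype.ext (Subtype.ext pa_sq))
    (Subtype.ext (Subtype.ext pa_pb)) ?_ (Subtype.ext (Subtype.ext ph_pb)) ?_ hne
  · rw [mul_assoc (h * a * h), mul_assoc (h * a), ← mul_assoc h h h, hh, mul_one]
  · refine orderOf_eq_prime (by rw [pow_succ, pow_two, hh]) fun e => hne ?_
    rw [e, one_mul, mul_one]

theorem good_m22 : Good Spor.M22 := by
  refine Or.inr ⟨⟨pz, pz_mem⟩, z8, ?_, not_compl_pz, z8_order⟩
  refine orderOf_eq_prime ?_ fun e => pz_ne (congrArg Subtype.val e)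
  rw [pow_two]
  exact Subtype.ext pz_sq

theorem good_m23 : Good Spor.M23 :=
  good_m22.map (inclusion (inf_le_left : Spor.M22 ≤ Spor.M23)) (inclusion_injective _)

theorem good_m24 : Good M24 :=
  good_m23.map (inclusion (inf_le_left : Spor.M23 ≤ M24)) (inclusion_injective _)

theorem row_m22 {S : Type*} [Group S] [Finite S] (h : Spor.IsoM22 S) : Row S := by
  obtain ⟨e⟩ := h
  exact Or.inl (good_m22.map e.symm.toMonoidHom e.symm.injective)

theorem row_m23 {S : Type*} [Group S] [Finite S] (h : Spor.IsoM23 S) : Row S := by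
  obtain ⟨e⟩ := h
  exact Or.inl (good_m23.map e.symm.toMonoidHom e.symm.injective)

theorem row_m24 {S : Type*} [Group S] [Finite S] (h : Spor.IsoM24 S) : Row S := by
  obtain ⟨e⟩ := h
  exact Or.inl (good_m24.map e.symm.toMonoidHom e.symm.injective)

end Cfsg.Agent.H70.Five.Mathieu
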